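import Mathlib
import Cfsg.Agent.TwoG.Ident
import Cfsg.Agent.Inv.Rank2Aut
import Cfsg.Agent.Inv.UHAut
import Cfsg.Agent.Class.U.Frame3

/-! Special groups of order `64` with an automorphism of order five; the centraliser of an
involution in `U₃(4)`. -/

set_option autoImplicit false

namespace Cfsg.Agent.TwoG

open Subgroup Suz.Hig Class.U
open Cfsg.Agent.Inv (UH)
open scoped commutatorElement

theorem exists_lift {G H : Type*} [Group G] [Group H] {T : Subgroup G} [T.Normal] {y : G}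
    (h : T.IsComplement' (zpowers y)) (fn : T →* H) {d : H} (hd : orderOf d ∣ orderOf y)
    (hc : ∀ x : T, fn (MulAut.conjNormal y x) = d * fn x * d⁻¹) :
    ∃ Φ : G →* H, (∀ x : T, Φ x = fn x) ∧ Φ y = d := by
  have hg : ∀ x : zpowers y, x ∈ zpowers (⟨y, mem_zpowers y⟩ : zpowers y) := by
    rintro ⟨_, i, rfl⟩; exact ⟨i, rfl⟩
  let fg := monoidHomOfForallMemZpowers hg (g' := d) (by rwa [orderOf_mk])
  have hfg : fg ⟨y, mem_zpowers y⟩ = d := monoidHomOfForallMemZpowers_apply_gen _ _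
  have key : ∀ (g : zpowers y) (x : T), fn (MulAut.conjNormal (g : G) x) = fg g * fn x * (fg g)⁻¹ := by
    intro g
    let S : Subgroup (zpowers y) :=
      { carrier := {g | ∀ x : T, fn (MulAut.conjNormal (g : G) x) = fg g * fn x * (fg g)⁻¹}
        one_mem' := fun x => by simp
        mul_mem' := fun {a b} ha hb x => by
          rw [coe_mul, map_mul, MulAut.mul_apply, ha, hb, map_mul]; group
        inv_mem' := fun {a} ha x => by
          have e := ha ((MulAut.conjNormal (a : G))⁻¹ x)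
          rw [MulAut.apply_inv_self] at e
          rw [coe_inv, map_inv, map_inv, e]; group }
    exact zpowers_le.2 (show _ ∈ S from fun x => by rw [hfg]; exact hc x) (hg g)
  let e := SemidirectProduct.mulEquivSubgroup h
  let L := SemidirectProduct.lift (φ := T.normalizerMonoidHom.comp
    (inclusion (T.normalizer_eq_top ▸ le_top))) fn fg fun g => MonoidHom.ext fun x => key g x
  refine ⟨L.comp e.symm.toMonoidHom, fun x => ?_, ?_⟩
  · have : e.symm x = SemidirectProduct.inl x := e.symm_apply_eq.2 (by simp [e])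
    simp [this, L]
  · have : e.symm y = SemidirectProduct.inr ⟨y, mem_zpowers y⟩ := e.symm_apply_eq.2 (by simp [e])
    simp [this, L, hfg]

/-- The companion matrix of the fifth cyclotomic polynomial. -/
def F5 (a : ZMod 2 × ZMod 2 × ZMod 2 × ZMod 2) : ZMod 2 × ZMod 2 × ZMod 2 × ZMod 2 :=
  (a.2.2.2, a.1 + a.2.2.2, a.2.1 + a.2.2.2, a.2.2.1 + a.2.2.2)

/-- The invariant quadratic map. -/
def P5 (a : ZMod 2 × ZMod 2 × ZMod 2 × ZMod 2) : ZMod 2 × ZMod 2 :=
  (a.1 + a.2.1 + a.2.2.1 + a.2.2.2 + a.1 * a.2.1 + a.2.1 * a.2.2.1 + a.2.2.1 * a.2.2.2,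
    a.1 + a.2.1 + a.2.2.1 + a.2.2.2 + a.1 * a.2.2.1 + a.2.1 * a.2.2.2 + a.1 * a.2.2.2)

theorem F5_span : ∀ a : ZMod 2 × ZMod 2 × ZMod 2 × ZMod 2, a ≠ 0 → ∃ c : ZMod 2 × ZMod 2 × ZMod 2 × ZMod 2,
    c.1 • a + c.2.1 • F5 a + c.2.2.1 • F5 (F5 a) + c.2.2.2 • F5 (F5 (F5 a)) = (1, 0, 0, 0) := by
  decide

theorem exists_frame {V : Type*} [AddCommGroup V] (hV : ∀ v : V, v + v = 0) (f : V →+ V)
    (hf : ∀ v, f (f (f (f v))) = v + f v + f (f v) + f (f (f v))) {u : V} (hu : u ≠ 0) :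
    ∃ e : ZMod 2 × ZMod 2 × ZMod 2 × ZMod 2 →+ V, Function.Injective e ∧ (∀ a, f (e a) = e (F5 a)) ∧
      ∀ a, e a = a.1.val • u + a.2.1.val • f u + a.2.2.1.val • f (f u) + a.2.2.2.val • f (f (f u)) := by
  let _ : Module (ZMod 2) V := AddCommGroup.zmodModule (fun v => by rw [two_nsmul, hV])
  let e : ZMod 2 × ZMod 2 × ZMod 2 × ZMod 2 →+ V := AddMonoidHom.mk'
    (fun a => a.1 • u + a.2.1 • f u + a.2.2.1 • f (f u) + a.2.2.2 • f (f (f u)))
    fun s t => by simp only [Prod.fst_add, Prod.snd_add]; module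
  have h1 : ∀ a, f (e a) = e (F5 a) := fun a => by
    simp only [e, F5, AddMonoidHom.mk'_apply, map_add, ZMod.map_smul, hf]; module
  refine ⟨e, (injective_iff_map_eq_zero e).2 fun a ha => by_contra fun h0 => hu ?_, h1, fun a => ?_⟩
  · obtain ⟨c, hc⟩ := F5_span a h0
    have := congrArg e hc
    simp only [map_add, ZMod.map_smul, ← h1, ha, map_zero, smul_zero, add_zero] at this
    simpa [e] using this.symm
  · simp only [← Nat.cast_smul_eq_nsmul (ZMod 2), ZMod.natCast_zmod_val]; rfl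

theorem normal_form5 {V W : Type*} [AddCommGroup V] [AddCommGroup W] [Finite V] [Finite W]
    (hV : ∀ v : V, v + v = 0) (hW : ∀ w : W, w + w = 0) (Q : V → W) (b : V →+ V →+ W)
    (hQ : ∀ x y, Q (x + y) = Q x + Q y + b x y) (f : V →+ V)
    (hf : ∀ v, f (f (f (f v))) = v + f v + f (f v) + f (f (f v))) (hQf : ∀ v, Q (f v) = Q v)
    (hcV : Nat.card V = 16) (hcW : Nat.card W = 4)
    (hgen : ∀ B : AddSubgroup W, (∀ v, Q v ∈ B) → B = ⊤) :
    ∃ (eV : ZMod 2 × ZMod 2 × ZMod 2 × ZMod 2 ≃+ V) (eW : ZMod 2 × ZMod 2 ≃+ W),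
      (∀ a, Q (eV a) = eW (P5 a)) ∧ ∀ a, f (eV a) = eV (F5 a) := by
  let _ : Module (ZMod 2) V := AddCommGroup.zmodModule (fun v => by rw [two_nsmul, hV])
  let _ : Module (ZMod 2) W := AddCommGroup.zmodModule (fun v => by rw [two_nsmul, hW])
  have : Nontrivial V := Finite.one_lt_card_iff_nontrivial.1 (by omega)
  obtain ⟨u, hu⟩ := exists_ne (0 : V)
  obtain ⟨e, he, h1, h2⟩ := exists_frame hV f hf hu
  have h0 : Q 0 = 0 := by simpa [hW] using hQ 0 0
  have hbe : ∀ x y, b x y = Q (x + y) + Q x + Q y := fun x y => by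
    rw [hQ]; linear_combination (norm := module) -hW (Q x) - hW (Q y)
  have hbs : ∀ x y, b x y = b y x := fun x y => by rw [hbe, hbe, add_comm x, add_right_comm]
  have hbx : ∀ x, b x x = 0 := fun x => by rw [hbe, hV, h0, zero_add, hW]
  have hbf : ∀ x y, b (f x) (f y) = b x y := fun x y => by
    rw [hbe, hbe, ← map_add, hQf, hQf, hQf]
  have h3 : b u (f (f (f u))) = b u (f (f u)) := by
    have := hbf u (f (f (f u)))
    rw [hf, map_add, map_add, map_add, hbx, hbs (f u) u, hbf, hbf] at this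
    linear_combination (norm := module) -this + hW (b u (f u))
  have h4 : Q u = b u (f u) + b u (f (f u)) := by
    have := hQf (f (f (f u)))
    rw [hf] at this
    simp only [hQ, hQf, map_add, AddMonoidHom.add_apply, hbf, h3] at this
    linear_combination (norm := module) this - hW (Q u) - hW (b u (f u)) - hW (b u (f (f u))) -
      hW (b u (f u) + b u (f (f u)))
  have hQs : ∀ (c : ZMod 2) v, Q (c • v) = c • Q v := by
    intro c v
    have : c = 0 ∨ c = 1 := by revert c; decide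
    rcases this with rfl | rfl <;> simp [h0]
  have hbl : ∀ (c : ZMod 2) u v, b (c • u) v = c • b u v := fun c u v =>
    ZMod.map_smul (b.flip v) c u
  have hbr : ∀ (c : ZMod 2) u v, b u (c • v) = c • b u v := fun c u v => ZMod.map_smul (b u) c v
  let eW : ZMod 2 × ZMod 2 →+ W := AddMonoidHom.mk' (fun s => s.1 • b u (f u) + s.2 • b u (f (f u)))
    fun s t => by simp only [Prod.fst_add, Prod.snd_add]; module
  have key : ∀ a, Q (e a) = eW (P5 a) := by
    rintro ⟨a, b, c, d⟩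
    simp only [h2, ← Nat.cast_smul_eq_nsmul (ZMod 2), ZMod.natCast_zmod_val, eW, P5,
      AddMonoidHom.mk'_apply, hQ, hQs, map_add, AddMonoidHom.add_apply, hbl, hbr, hQf, hbf, h3, h4]
    module
  have hb : Function.Bijective e := (Nat.bijective_iff_injective_and_card _).2 ⟨he, by simp [hcV]⟩
  have hb' : Function.Bijective eW := (Nat.bijective_iff_surjective_and_card _).2
    ⟨AddMonoidHom.range_eq_top.1 (hgen _ fun v => by
      obtain ⟨a, rfl⟩ := hb.2 v
      exact ⟨_, (key a).symm⟩), by simp [hcW]⟩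
  exact ⟨AddEquiv.ofBijective e hb, AddEquiv.ofBijective eW hb', key, h1⟩

variable {T : Type*} [Group T]

theorem cyclo {V : Type*} [AddCommGroup V] (hV : ∀ v : V, v + v = 0) (f : V →+ V)
    (h5 : ∀ v, f (f (f (f (f v)))) = v) (hfp : ∀ v, f v = v → v = 0) (v : V) :
    f (f (f (f v))) = v + f v + f (f v) + f (f (f v)) := by
  have := hfp (v + f v + f (f v) + f (f (f v)) + f (f (f (f v)))) (by
    simp only [map_add, h5]; abel)
  linear_combination (norm := abel) this - hV (v + f v + f (f v) + f (f (f v)))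

/-- The hypothesis on a group of order `64` with an automorphism of order five. -/
structure H5 (β : MulAut T) (Z : Subgroup T) : Prop where
  card : Nat.card T = 64
  cardZ : Nat.card Z = 4
  cen : ∀ z ∈ Z, ∀ g, z * g = g * z
  two : ∀ z ∈ Z, z * z = 1
  sq : Suz.Hig.sq ⊤ = Z
  fix : ∀ z ∈ Z, β z = z
  five : β ^ 5 = 1
  fpf : ∀ x, x⁻¹ * β x ∈ Z → x ∈ Z

theorem H5.coords [Finite T] {β : MulAut T} {Z : Subgroup T} (h : H5 β Z) :
    ∃ (π : T → ZMod 2 × ZMod 2 × ZMod 2 × ZMod 2) (ψ : T → ZMod 2 × ZMod 2),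
      IsQuot ⊤ Z π ∧ IsQuot Z ⊥ ψ ∧ (∀ x, ψ (x * x) = P5 (π x)) ∧ ∀ x, π (β x) = F5 (π x) := by
  have hsq : ∀ x, x * x ∈ Z := fun x => h.sq ▸ mul_self_mem_sq trivial
  obtain ⟨V, W, _, _, π, ψ, Q, b, hπ, hψ, hQ, hb, hQb, hV, hW⟩ := Inv.exists_quad (le_top (a := Z))
    h.cen (fun x _ => hsq x) h.two
  have := hπ.finite
  have := hψ.finite
  obtain ⟨f, hf⟩ := hπ.exists_add (fun x => π (β x))
    (fun x _ y _ => by rw [map_mul, hπ.map_mul _ trivial _ trivial])
    (fun x hx => by rw [h.fix x hx, hπ.map_of_mem hx])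
  have hf' : ∀ x, f (π x) = π (β x) := fun x => hf x trivial
  obtain ⟨eV, eW, he, he'⟩ := normal_form5 hV hW Q b hQb f (cyclo hV f (fun v => by
      obtain ⟨x, -, rfl⟩ := hπ.surj v
      simp only [hf']
      exact congrArg π (DFunLike.congr_fun h.five x)) fun v hv => by
      obtain ⟨x, -, rfl⟩ := hπ.surj v
      rw [hf', eq_comm, hπ.eq_iff trivial trivial] at hv
      exact hπ.map_of_mem (h.fpf x hv)) (fun v => by
      obtain ⟨x, -, rfl⟩ := hπ.surj v
      rw [hf', hQ _ trivial, hQ _ trivial, ← map_mul, h.fix _ (hsq x)])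
    (by have := hπ.card; rw [card_top, h.card, h.cardZ] at this; omega)
    (by simpa [h.cardZ] using hψ.card.symm) fun B hB => by
      let B' : Subgroup T :=
        { carrier := {z | z ∈ Z ∧ ψ z ∈ B}
          one_mem' := ⟨one_mem _, by rw [hψ.map_one]; exact zero_mem _⟩
          mul_mem' := fun ha hb => ⟨mul_mem ha.1 hb.1, by
            rw [hψ.map_mul _ ha.1 _ hb.1]; exact add_mem ha.2 hb.2⟩
          inv_mem' := fun ha => ⟨inv_mem ha.1, by rw [hψ.map_inv' ha.1]; exact neg_mem ha.2⟩ }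
      have : Z ≤ B' := h.sq ▸ sq_le_iff.2 fun x _ => ⟨hsq x, hQ x trivial ▸ hB _⟩
      refine eq_top_iff.2 fun w _ => ?_
      obtain ⟨z, hz, rfl⟩ := hψ.surj w
      exact (this hz).2
  refine ⟨_, _, hπ.comp_bij eV.symm.toAddMonoidHom eV.symm.bijective,
    hψ.comp_bij eW.symm.toAddMonoidHom eW.symm.bijective, fun x => ?_, fun x => ?_⟩
  · change eW.symm _ = P5 (eV.symm _)
    rw [AddEquiv.symm_apply_eq, ← he, eV.apply_symm_apply, hQ x trivial]
  · change eV.symm _ = F5 (eV.symm _)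
    rw [AddEquiv.symm_apply_eq, ← he', eV.apply_symm_apply, hf']

variable {F : Type*} [Field F] [hU : UF F 4] [CharP F 2]

local notation "σ" => conj F 4

theorem h5_UH {t : Fˣ} (ht : (t : F) * σ t = 1) (h1 : t ≠ 1) :
    H5 (Inv.UH.tor t : MulAut (UH F 4)) (center _) := by
  refine ⟨Inv.UH.card, Inv.UH.card_center, fun z hz g => (mem_center_iff.1 hz g).symm,
    fun z hz => Inv.UH.mul_self_eq_one_iff.2 (Inv.UH.mem_center_iff.1 hz),
    le_antisymm (sq_le_iff.2 fun x _ => Inv.UH.mul_self_mem_center x) fun z hz => ?_,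
    fun z hz => ?_, ?_, fun x hx => ?_⟩
  · rw [Inv.UH.mem_center_iff] at hz
    obtain ⟨c, hc⟩ := exists_norm_eq (q := 4) (μ := z.a) (by
      rw [Inv.UH.conj_a, hz]; simp [CharTwo.neg_eq])
    obtain ⟨x, rfl⟩ := Inv.UH.exists_c (q := 4) c
    have : z = x * x := Inv.UH.ext (by rw [hz, Inv.UH.mul_self_c]) (by rw [Inv.UH.mul_self_a, hc])
    exact this ▸ mul_self_mem_sq trivial
  · exact Inv.UH.ext (by rw [Inv.UH.tor_c, Inv.UH.mem_center_iff.1 hz, mul_zero])
      (by rw [Inv.UH.tor_a, ht, one_mul])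
  · rw [← map_pow, show t ^ 5 = 1 from Units.ext (by simpa [mul_conj_eq_pow] using ht), map_one]
  · rw [Inv.UH.mem_center_iff] at hx ⊢
    rw [Inv.UH.mul_c, Inv.UH.inv_c, Inv.UH.tor_c] at hx
    exact (mul_eq_zero.1 (show ((t : F) - 1) * x.c = 0 by linear_combination hx)).resolve_left
      fun e => h1 (Units.ext (sub_eq_zero.1 e))

theorem H5.exists_equiv [Finite T] {β : MulAut T} {Z : Subgroup T} (h : H5 β Z) {t : Fˣ}
    (ht : (t : F) * σ t = 1) (h1 : t ≠ 1) :
    ∃ e : T ≃* UH F 4, ∀ x, e (β x) = Inv.UH.tor t (e x) := by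
  have h' := h5_UH ht h1
  obtain ⟨π, ψ, hπ, hψ, h2, h3⟩ := h.coords
  obtain ⟨π', ψ', hπ', hψ', h2', h3'⟩ := h'.coords
  obtain ⟨e₀, he, -⟩ := exists_mulEquiv_of_sq hπ hψ (fun z hz g _ => h.cen z hz g)
    (fun x _ => h.sq ▸ mul_self_mem_sq trivial) hπ' hψ' (fun z hz g _ => h'.cen z hz g)
    (fun x _ => Inv.UH.mul_self_mem_center x) (by decide) fun x _ y _ e => by rw [h2, h2', e]
  let e := (topEquiv.symm.trans e₀).trans topEquiv
  have he' : ∀ x, π' (e x) = π x := fun x => he ⟨x, trivial⟩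
  clear_value e
  obtain ⟨g, hg⟩ := Inv.UH.exists_cAut (α := MulAut.congr e β * (Inv.UH.tor t)⁻¹) fun y => by
    obtain ⟨y, rfl⟩ := (Inv.UH.tor t).surjective y
    obtain ⟨x, rfl⟩ := e.surjective y
    have := (hπ'.eq_iff (mem_top (e (β x))) (mem_top (Inv.UH.tor t (e x)))).1
      (by rw [he', h3, h3', he'])
    rw [Inv.UH.mem_center_iff, Inv.UH.mul_c, Inv.UH.inv_c, neg_add_eq_zero] at this
    simpa using this
  have hg' : ∀ x, e (β x) = Inv.UH.cAut g (Inv.UH.tor t (e x)) := fun x => by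
    rw [← hg]; simp
  have h4 : (1 : F) + t ≠ 0 := fun e => h1 (Units.ext (CharTwo.add_eq_zero.1 e).symm)
  refine ⟨e.trans (Inv.UH.cAut (g.comp (AddMonoidHom.mulLeft (t / (1 + t))))), fun x => ?_⟩
  rw [MulEquiv.trans_apply, MulEquiv.trans_apply, hg']
  ext
  · simp only [Inv.UH.cAut_c, Inv.UH.tor_c]
  · simp only [Inv.UH.cAut_c, Inv.UH.tor_c, Inv.UH.cAut_a, Inv.UH.tor_a, ht, one_mul, add_assoc,
      AddMonoidHom.comp_apply, AddMonoidHom.coe_mulLeft, ← AddSubgroup.coe_add, ← map_add]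
    congr 3
    field_simp
    linear_combination (t : F) * (e x).c * (CharTwo.two_eq_zero (R := F))

local notation "𝐡" => hermForm 3 F 4

/-- The centraliser of a transvection in `SU₃(4)`. -/
theorem exists_model : ∃ (f : UH F 4 →* SU 3 F 4) (d : SU 3 F 4) (t : Fˣ) (z : UH F 4),
    Function.Injective f ∧ (t : F) * σ t = 1 ∧ t ≠ 1 ∧ orderOf d = 5 ∧ orderOf z = 2 ∧
    (∀ x, f (Inv.UH.tor t x) = d * f x * d⁻¹) ∧ (∀ i : ℕ, d ^ i ∈ f.range → d ^ i = 1) ∧
    ∀ g, g * f z = f z * g ↔ ∃ (x : UH F 4) (i : ℕ), g = f x * d ^ i := by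
  have := hU.finite
  have : Fact (Nat.Prime 5) := ⟨by norm_num⟩
  obtain ⟨e, e0, ee⟩ := exists_isotropic (F := F) (q := 4) (n := 3) (by norm_num)
  obtain ⟨n, f', h⟩ := exists_fr e0 ee
  have hne : ∀ c : F, 𝐡 (c • n) e = 0 := fun c => by rw [herm_smul_left, h.ne, mul_zero]
  choose f₀ hf using fun x : UH F 4 => h.exists_unip x.h
  let f : UH F 4 →* SU 3 F 4 := MonoidHom.mk' f₀ fun x y => (hf _).unique (by
    have := (hf x).mul (hf y) ee (hne _) (hne _)
    rwa [← add_smul, herm_smul_left, herm_smul_right, h.nn, mul_one] at this)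
  have hf' : ∀ x, IsSiegel e (x.c • n) x.a (f x) := hf
  obtain ⟨l, hl, hl1⟩ := exists_norm_one_ne_one F 4
  have l0 : l ≠ 0 := left_ne_zero_of_mul_eq_one hl
  have hl5 : l ^ 5 = 1 := by rwa [mul_conj_eq_pow] at hl
  obtain ⟨d, de, df⟩ := h.exists_diag l0
  have hσ : (σ l)⁻¹ = l := inv_eq_of_mul_eq_one_left hl
  rw [hσ] at df
  have dpe : ∀ i : ℕ, d ^ i • e = l ^ i • e ∧ d ^ i • f' = l ^ i • f' := fun i => by
    induction i with
    | zero => simp
    | succ i ih => simp only [pow_succ, mul_smul, de, df, SU_smul_comm, ih, and_self, smul_comm l]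
  have hd1 : ∀ i : ℕ, l ^ i = 1 → d ^ i = 1 := fun i hi =>
    h.eq_one (by rw [(dpe i).1, hi, one_smul]) (by rw [(dpe i).2, hi, one_smul])
  have hconj : ∀ x, f (Inv.UH.tor (Units.mk0 l l0 ^ 2) x) = d * f x * d⁻¹ := fun x => by
    have e1 := (hf' x).conj d
    rw [de, SU_smul_comm, (h.n_of_diag de df).2] at e1
    refine (hf' _).unique ?_
    convert e1.of_smul using 1
    · rw [smul_smul, smul_smul, Inv.UH.tor_c, conj_apply]
      congr 1
      simp only [Units.val_pow_eq_pow_val, Units.val_mk0]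
      field_simp
      linear_combination -x.c * hl5
    · rw [Inv.UH.tor_a, hl]
      simp only [Units.val_pow_eq_pow_val, Units.val_mk0, map_pow, ← mul_pow, hl, one_pow]
  let z : UH F 4 := Inv.UH.cen 1 (map_one _)
  have hz : IsSiegel e 0 1 (f z) := by simpa [z, Inv.UH.cen] using hf' z
  have hzc : z ∈ center (UH F 4) := Inv.UH.mem_center_iff.2 rfl
  have hl2 : (Units.mk0 l l0 ^ 2 : Fˣ) * σ (Units.mk0 l l0 ^ 2 : Fˣ) = 1 := by
    simp only [Units.val_pow_eq_pow_val, Units.val_mk0, map_pow, ← mul_pow, hl, one_pow]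
  have hne1 : Units.mk0 l l0 ^ 2 ≠ 1 := fun e => hl1 (by
    have : l ^ 2 = 1 := congrArg Units.val e
    linear_combination hl5 - (l ^ 3 + l) * this)
  refine ⟨f, d, Units.mk0 l l0 ^ 2, z, (injective_iff_map_eq_one f).2 fun x hx => ?_, hl2, hne1,
    orderOf_eq_prime (hd1 5 hl5) ?_, orderOf_eq_prime (by
      rw [pow_two]; exact Inv.UH.mul_self_eq_one_iff.2 rfl) fun e => one_ne_zero (congrArg Inv.UH.a e),
    hconj, ?_, fun g => ⟨fun hg => ?_, ?_⟩⟩
  · obtain ⟨h1, h2⟩ := h.unip_fix (hf' x) (v := f') (m := 1) (by rw [h.fe]; exact one_ne_zero)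
      (by rw [hx, one_smul, one_smul])
    exact Inv.UH.ext h1 h2
  · rintro rfl
    exact hl1 (smul_left_injective F e0 (by simpa using de.symm))
  · rintro i ⟨x, hx⟩
    have := h.unip_e (hf' x)
    rw [hx, (dpe i).1] at this
    exact hd1 i (smul_left_injective F e0 (by simpa using this))
  · have e1 := hz.conj g
    rw [hg, mul_inv_cancel_right, smul_zero] at e1
    obtain ⟨m, hm⟩ := fix_line_of_isSiegel one_ne_zero hz e1
    rw [hm, ← smul_zero (σ m)⁻¹] at e1
    have e2 := e1.of_smul f'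
    rw [hz f'] at e2
    simp only [smul_zero, h.fe, mul_one, add_right_inj, herm_zero_right] at e2
    have e3 : m ^ 5 = 1 := by
      rw [← mul_conj_eq_pow (q := 4)]
      exact (smul_left_injective F e0 e2).symm
    obtain ⟨i, -, rfl⟩ := (IsPrimitiveRoot.iff_orderOf.2 (orderOf_eq_prime hl5 hl1)).eq_pow_of_pow_eq_one e3
    obtain ⟨c, a, hu⟩ := h.isSiegel_of_fix (g := g * (d ^ i)⁻¹) (by
      rw [mul_smul, inv_smul_of_eigen (pow_ne_zero i l0) (dpe i).1, SU_smul_comm, hm, smul_smul,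
        inv_mul_cancel₀ (pow_ne_zero i l0), one_smul])
    have e4 := hu.cond e0 ee (hne c)
    rw [herm_smul_left, herm_smul_right, h.nn, mul_one] at e4
    exact ⟨⟨c, a, e4⟩, i, by rw [← hu.unique (hf' ⟨c, a, e4⟩), inv_mul_cancel_right]⟩
  · rintro ⟨x, i, rfl⟩
    have e1 : Commute d (f z) := by
      have := hconj z
      rw [(h5_UH hl2 hne1).fix z hzc] at this
      exact (eq_mul_inv_iff_mul_eq.1 this).symm
    exact (Commute.mul_left (Commute.map (mem_center_iff.1 hzc x) f) (e1.pow_left i)).eq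

end Cfsg.Agent.TwoG
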