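import Mathlib
import Cfsg.Agent.Inv.UHAut
import Cfsg.Agent.Chev.SzStruct
import Cfsg.Agent.Chev.SzLie
import Cfsg.Agent.Suz.SzModel

/-! The automorphism group of a Sylow 2-subgroup of `Sz(2ⁿ)`. -/

set_option autoImplicit false

namespace Cfsg.Agent.TwoG

open Subgroup Chev Chev.Suz

/-- In a vanishing combination of characters every character occurs twice. -/
theorem exists_ne_of_sum_eq_zero {ι M F : Type*} [Fintype ι] [Monoid M] [Field F]
    (f : ι → M →* F) (e : ι → F) (h : ∀ a, ∑ i, e i * f i a = 0) {i : ι} (hi : e i ≠ 0) :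
    ∃ j, j ≠ i ∧ e j ≠ 0 ∧ f j = f i := by
  classical
  by_contra hc
  push Not at hc
  have := linearIndependent_iff'.1 (linearIndependent_monoidHom M F) (Finset.univ.image f)
    (fun χ => ∑ j with f j = χ, e j) (by
      funext a
      rw [Finset.sum_apply, Pi.zero_apply, ← h a, ← Finset.sum_fiberwise_of_maps_to
        (g := f) (t := Finset.univ.image f) fun x hx => Finset.mem_image_of_mem f hx]
      refine Finset.sum_congr rfl fun χ _ => ?_
      rw [Pi.smul_apply, smul_eq_mul, Finset.sum_mul]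
      exact Finset.sum_congr rfl fun j hj => by rw [(Finset.mem_filter.1 hj).2])
    (f i) (Finset.mem_image_of_mem f (Finset.mem_univ i))
  rw [Finset.sum_eq_single_of_mem i (by simp) fun j hj hji => by
    by_contra h0; exact hc j hji h0 (Finset.mem_filter.1 hj).2] at this
  exact hi this

variable {F : Type*} [Field F] {m : ℕ} [hSz : SzField F m]

local notation "θ" => th F

theorem map_th (φ : F ≃+* F) (x : F) : φ (θ x) = θ (φ x) := by rw [th_def, th_def, map_pow]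

theorem semilinear_aux (A B : F →+ F) (h : ∀ c, B (c * θ c) = A c * θ (A c)) (h1 : A 1 ≠ 0) :
    ∃ (t : Fˣ) (φ : F ≃+* F), ∀ c, A c = t * φ c := by
  classical
  have := Fintype.ofFinite F
  obtain ⟨u, hu⟩ := Suz.FM.exists_comb A
  obtain ⟨d, hd⟩ := Suz.FM.exists_comb B
  let f : (F ≃+* F) ⊕ (F ≃+* F) × (F ≃+* F) → F →* F := Sum.elim
    (fun τ => (τ : F →* F) * ((τ : F →* F).comp θ))
    fun p => (p.1 : F →* F) * ((p.2 : F →* F).comp θ)
  let e : (F ≃+* F) ⊕ (F ≃+* F) × (F ≃+* F) → F := Sum.elim d fun p => u p.1 * θ (u p.2)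
  have hs : ∀ a, ∑ i, e i * f i a = 0 := fun a => by
    have := h a
    rw [hd, hu, map_sum, Finset.sum_mul_sum, ← Finset.sum_product'] at this
    rw [Fintype.sum_sum_type, ← CharTwo.add_self_eq_zero (∑ σ, d σ * σ (a * θ a))]
    congr 1
    · exact Finset.sum_congr rfl fun σ _ => by simp [e, f]
    · refine Eq.trans ?_ this.symm
      exact Finset.sum_congr rfl fun p _ => by simp [e, f, map_th]; ring
  let Θ : F ≃+* F := RingEquiv.ofBijective θ th_bijective
  have hΘ : ∀ x, Θ x = θ x := fun _ => rfl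
  have pair : ∀ {σ ρ σ' ρ' : F ≃+* F}, (∀ x, σ x * ρ (θ x) = σ' x * ρ' (θ x)) →
      (σ = σ' ∧ ρ = ρ') ∨ ((∀ x, σ x = ρ' (θ x)) ∧ ∀ x, ρ (θ x) = σ' x) := by
    intro σ ρ σ' ρ' H
    rcases @Suz.SzM.pair_of_mul_eq F _ _ (σ'.symm.trans σ) ((σ'.symm.trans Θ).trans ρ)
      ((σ'.symm.trans Θ).trans ρ') (fun x => by simpa [hΘ] using H (σ'.symm x)) with
      ⟨a, b⟩ | ⟨a, b⟩
    · refine Or.inl ⟨RingEquiv.ext fun x => by simpa using DFunLike.congr_fun a (σ' x),
        RingEquiv.ext fun x => ?_⟩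
      obtain ⟨x, rfl⟩ := th_surjective x
      simpa [hΘ] using DFunLike.congr_fun b (σ' x)
    · exact Or.inr ⟨fun x => by simpa [hΘ] using DFunLike.congr_fun a (σ' x),
        fun x => by simpa [hΘ] using DFunLike.congr_fun b (σ' x)⟩
  obtain ⟨x₀, hx0, hx1⟩ := exists_ne_zero_one F
  have hθ : θ x₀ ≠ x₀ := fun e => (th_eq_self e).elim hx0 hx1
  have key : ∀ σ ρ, u σ ≠ 0 → u ρ ≠ 0 → σ = ρ ∨ (∃ τ : F ≃+* F, (∀ x, τ x = ρ (θ x)) ∧
      ∀ x, τ (θ x) = σ x) ∨ ∃ τ, u τ ≠ 0 ∧ (∀ x, τ x = ρ (θ x)) ∧ τ ≠ σ := fun σ ρ hσ hρ => by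
    obtain ⟨j, hj, hj0, hf⟩ := exists_ne_of_sum_eq_zero f e hs (i := Sum.inr (σ, ρ))
      (mul_ne_zero hσ (th_ne_zero hρ))
    rcases j with τ | ⟨σ', ρ'⟩
    · rcases pair (σ := τ) (ρ := τ) (σ' := σ) (ρ' := ρ)
        (fun x => by simpa [f] using DFunLike.congr_fun hf x) with ⟨a, b⟩ | H
      · exact Or.inl (a.symm.trans b)
      · exact Or.inr (Or.inl ⟨τ, H⟩)
    · rcases pair (σ := σ') (ρ := ρ') (σ' := σ) (ρ' := ρ)
        (fun x => by simpa [f] using DFunLike.congr_fun hf x) with ⟨a, b⟩ | H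
      · exact absurd (by rw [a, b]) hj
      · refine Or.inr (Or.inr ⟨σ', left_ne_zero_of_mul hj0, H.1, ?_⟩)
        rintro rfl
        refine hj ?_
        obtain rfl : ρ' = ρ := RingEquiv.ext fun x => by
          obtain ⟨x, rfl⟩ := th_surjective x
          rw [H.2, H.1]
        rfl
  have k1 : ∀ σ ρ, u σ ≠ 0 → u ρ ≠ 0 → ¬ ∀ x, σ x = ρ (θ x) := fun σ ρ hσ hρ H => by
    rcases key σ ρ hσ hρ with rfl | ⟨τ, a, b⟩ | ⟨τ, -, a, b⟩
    · exact hθ (σ.injective (H x₀)).symm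
    · exact hθ (τ.injective (by rw [b, a, H]))
    · exact b (RingEquiv.ext fun x => by rw [a, H])
  have k2 : ∀ σ ρ, u σ ≠ 0 → u ρ ≠ 0 → σ = ρ ∨ ∀ x, σ x = ρ (x ^ 2) := fun σ ρ hσ hρ => by
    rcases key σ ρ hσ hρ with h | ⟨τ, a, b⟩ | ⟨τ, hτ, a, -⟩
    · exact Or.inl h
    · exact Or.inr fun x => by rw [← b, a, th_th]
    · exact absurd a (k1 τ ρ hτ hρ)
  have k3 : ∀ σ ρ, u σ ≠ 0 → u ρ ≠ 0 → σ = ρ := fun σ ρ hσ hρ => by
    by_contra hne
    have a := (k2 σ ρ hσ hρ).resolve_left hne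
    have b := (k2 ρ σ hρ hσ).resolve_left (Ne.symm hne)
    have h4 : ∀ x : F, x ^ 4 = x := fun x => σ.injective (by rw [a x, b, ← pow_mul])
    have h5 : ∀ k, x₀ ^ 2 ^ (2 * k) = x₀ := fun k => by
      induction k with
      | zero => simp
      | succ k ih => rw [mul_add, pow_add, pow_mul x₀, ih]; exact h4 x₀
    have h6 := pow_q x₀
    rw [pow_succ, pow_mul x₀, h5] at h6
    exact hx1 (mul_left_cancel₀ hx0 (by linear_combination h6))
  obtain ⟨σ, hσ⟩ : ∃ σ, u σ ≠ 0 := by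
    by_contra hc
    push Not at hc
    exact h1 (by simp [hu, hc])
  refine ⟨Units.mk0 _ hσ, σ, fun c => ?_⟩
  rw [hu, Finset.sum_eq_single σ (fun ρ _ hρ => by
    by_contra h0; exact hρ (k3 ρ σ (left_ne_zero_of_mul h0) hσ)) (by simp)]
  rfl

variable (F) in
/-- A model of the Sylow 2-subgroup of the Suzuki group. -/
@[ext] structure SH where
  c : F
  a : F

namespace SH

noncomputable instance : Mul (SH F) := ⟨fun x y => ⟨x.c + y.c, x.a + y.a + θ x.c * y.c⟩⟩
instance : One (SH F) := ⟨⟨0, 0⟩⟩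
noncomputable instance : Inv (SH F) := ⟨fun x => ⟨x.c, x.a + x.c * θ x.c⟩⟩

@[simp] theorem mul_c (x y : SH F) : (x * y).c = x.c + y.c := rfl
@[simp] theorem mul_a (x y : SH F) : (x * y).a = x.a + y.a + θ x.c * y.c := rfl
omit hSz in @[simp] theorem one_c : (1 : SH F).c = 0 := rfl
omit hSz in @[simp] theorem one_a : (1 : SH F).a = 0 := rfl
@[simp] theorem inv_c (x : SH F) : x⁻¹.c = x.c := rfl
@[simp] theorem inv_a (x : SH F) : x⁻¹.a = x.a + x.c * θ x.c := rfl

noncomputable instance : Group (SH F) := Group.ofLeftAxioms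
  (fun x y z => by ext <;> simp <;> ring) (fun x => by ext <;> simp)
  fun x => by
    ext
    · simp [CharTwo.add_self_eq_zero]
    · simp only [mul_a, inv_a, inv_c, one_a]
      linear_combination (x.a + x.c * θ x.c) * two_eq_zero' (F := F)

theorem nonempty_equiv (P : Sylow 2 (Lie.Sz F (2 ^ (m + 1)))) :
    Nonempty (SH F ≃* (P : Subgroup (Lie.Sz F (2 ^ (m + 1))))) := by
  let f : SH F →* Sz F m := MonoidHom.mk' (fun x => uu x.c x.a) fun x y => (uu_mul _ _ _ _).symm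
  have hf : Function.Injective f := fun x y h => SH.ext (uu_inj.1 h).1 (uu_inj.1 h).2
  have hr : f.range = (sylowAt (inf F) : Subgroup (Sz F m)) := by
    ext g
    rw [coe_sylowAt, mem_Qp_inf]
    exact ⟨fun ⟨x, h⟩ => ⟨_, _, h.symm⟩, fun ⟨a, b, h⟩ => ⟨⟨a, b⟩, h.symm⟩⟩
  have : Finite (Lie.Sz F (2 ^ (m + 1))) := Finite.of_equiv _ (lieEquiv F).toEquiv
  let P' := (sylowAt (inf F)).mapSurjective (f := (lieEquiv F).toMonoidHom) (lieEquiv F).surjective
  exact ⟨(((MonoidHom.ofInjective hf).trans (MulEquiv.subgroupCongr hr)).trans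
    (equivMapOfInjective _ _ (lieEquiv F).injective)).trans (P'.equiv P)⟩

theorem mem_center_iff {x : SH F} : x ∈ center (SH F) ↔ x.c = 0 := by
  rw [Subgroup.mem_center_iff]
  constructor
  · intro h
    have h1 : ∀ c, θ c * x.c = θ x.c * c := fun c => by
      have := congrArg SH.a (h ⟨c, 0⟩)
      simpa using this
    rcases th_eq_self (x := x.c) (by simpa using (h1 1).symm) with e | e
    · exact e
    · obtain ⟨x₀, hx0, hx1⟩ := exists_ne_zero_one F
      exact ((th_eq_self (by simpa [e] using h1 x₀)).elim hx0 hx1).elim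
  · intro h y
    ext <;> simp [h, add_comm]

theorem c_eq_iff (α : MulAut (SH F)) {x y : SH F} : (α x).c = (α y).c ↔ x.c = y.c := by
  have key : ∀ x y : SH F, x.c = y.c ↔ x * y⁻¹ ∈ center (SH F) := fun x y => by
    rw [mem_center_iff, mul_c, inv_c, CharTwo.add_eq_zero]
  rw [key, key, ← map_inv, ← map_mul]
  exact SetLike.ext_iff.1 (characteristic_iff_comap_eq.1 centerCharacteristic α) _

theorem mul_self (x : SH F) : x * x = ⟨0, x.c * θ x.c⟩ := by
  ext <;> simp [CharTwo.add_self_eq_zero, mul_comm]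

theorem exists_semilinear (α : MulAut (SH F)) :
    ∃ (t : Fˣ) (φ : F ≃+* F), ∀ x, (α x).c = t * φ x.c := by
  have hsa : ∀ x, (α ⟨x.c, 0⟩).c = (α x).c := fun x => (c_eq_iff α).2 rfl
  have h0 : ∀ x, (α x).c = 0 ↔ x.c = 0 := fun x => by
    simpa using c_eq_iff α (x := x) (y := 1)
  obtain ⟨t, φ, h⟩ := semilinear_aux (AddMonoidHom.mk' (fun c => (α ⟨c, 0⟩).c) fun c d => by
      rw [← mul_c, ← map_mul, ← hsa (_ * _), mul_c])
    (AddMonoidHom.mk' (fun a => (α ⟨0, a⟩).a) fun a b => by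
      have : (⟨0, a + b⟩ : SH F) = ⟨0, a⟩ * ⟨0, b⟩ := by ext <;> simp
      rw [this, map_mul, mul_a, (h0 ⟨0, b⟩).2 rfl, mul_zero, add_zero])
    (fun c => by
      simp only [AddMonoidHom.mk'_apply]
      rw [← mul_self ⟨c, 0⟩, map_mul, mul_self]) fun e => one_ne_zero ((h0 _).1 e)
  exact ⟨t, φ, fun x => by rw [← hsa, ← h]; rfl⟩

/-- the torus -/
noncomputable def tor (t : Fˣ) : MulAut (SH F) where
  toFun x := ⟨t * x.c, t * θ t * x.a⟩
  invFun x := ⟨(t⁻¹ : Fˣ) * x.c, (t⁻¹ : Fˣ) * θ (t⁻¹ : Fˣ) * x.a⟩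
  left_inv x := by
    have := th_ne_zero t.ne_zero
    ext <;> simp; field_simp
  right_inv x := by
    have := th_ne_zero t.ne_zero
    ext <;> simp; field_simp
  map_mul' x y := by ext <;> simp <;> ring

theorem tor_c (t : Fˣ) (x : SH F) : (tor t x).c = t * x.c := rfl

theorem tor_inv_c (t : Fˣ) (x : SH F) : ((tor t)⁻¹ x).c = (t⁻¹ : Fˣ) * x.c := rfl

/-- field automorphisms -/
noncomputable def gal (φ : F ≃+* F) : MulAut (SH F) where
  toFun x := ⟨φ x.c, φ x.a⟩
  invFun x := ⟨φ.symm x.c, φ.symm x.a⟩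
  left_inv x := by ext <;> simp
  right_inv x := by ext <;> simp
  map_mul' x y := by ext <;> simp [map_th]

variable (F) in
/-- automorphisms trivial modulo the centre -/
def autK : Subgroup (MulAut (SH F)) where
  carrier := {α | ∀ x, (α x).c = x.c}
  one_mem' _ := rfl
  mul_mem' ha hb x := by rw [MulAut.mul_apply, ha, hb]
  inv_mem' {α} ha x := by rw [← ha, MulAut.apply_inv_self]

theorem inv_mul_mem_autK {α β : MulAut (SH F)} :
    α⁻¹ * β ∈ autK F ↔ ∀ x, (α x).c = (β x).c :=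
  forall_congr' fun x => by
    rw [← c_eq_iff α, MulAut.mul_apply, MulAut.apply_inv_self, eq_comm]

instance : (autK F).Normal := ⟨fun α hα β x => by
  rw [MulAut.mul_apply, MulAut.mul_apply, (c_eq_iff β).2 (hα _), MulAut.apply_inv_self]⟩

theorem index_autK : (autK F).index = Nat.card Fˣ * Nat.card (F ≃+* F) := by
  rw [← Nat.card_prod]
  refine (Nat.card_eq_of_bijective (fun p : Fˣ × (F ≃+* F) =>
    (QuotientGroup.mk (tor p.1 * gal p.2) : _ ⧸ autK F)) ⟨?_, fun y => ?_⟩).symm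
  · rintro ⟨t, φ⟩ ⟨t', φ'⟩ h
    have h1 : ∀ c, (t : F) * φ c = t' * φ' c := fun c =>
      inv_mul_mem_autK.1 (QuotientGroup.eq.1 h) ⟨c, 0⟩
    obtain rfl : t = t' := Units.ext (by simpa using h1 1)
    exact Prod.ext rfl (RingEquiv.ext fun c => mul_left_cancel₀ t.ne_zero (h1 c))
  · obtain ⟨α, rfl⟩ := QuotientGroup.mk_surjective y
    obtain ⟨t, φ, h⟩ := exists_semilinear α
    exact ⟨(t, φ), QuotientGroup.eq.2 (inv_mul_mem_autK.2 fun x => (h x).symm)⟩

/-- central automorphisms -/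
noncomputable def cAut (f : F →+ F) : MulAut (SH F) where
  toFun x := ⟨x.c, x.a + f x.c⟩
  invFun x := ⟨x.c, x.a + f x.c⟩
  left_inv x := by ext <;> simp [add_assoc, CharTwo.add_self_eq_zero]
  right_inv x := by ext <;> simp [add_assoc, CharTwo.add_self_eq_zero]
  map_mul' x y := by ext <;> simp; ring

theorem cAut_c (f : F →+ F) (x : SH F) : (cAut f x).c = x.c := rfl

theorem cAut_a (f : F →+ F) (x : SH F) : (cAut f x).a = x.a + f x.c := rfl

theorem exists_cAut {α : MulAut (SH F)} (h : α ∈ autK F) : ∃ f, α = cAut f := by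
  have hz : ∀ z : SH F, z.c = 0 → α z = z := fun z hz => by
    obtain ⟨c, hc⟩ := mul_th_surj z.a
    have : z = ⟨c, 0⟩ * ⟨c, 0⟩ := by rw [mul_self, hc, ← hz]
    rw [this, map_mul, mul_self, mul_self, h]
  have hs' : ∀ x, (α ⟨x.c, 0⟩).a = (α x).a - x.a := fun x => by
    have e : x = ⟨x.c, 0⟩ * ⟨0, x.a⟩ := by ext <;> simp
    conv_rhs => rw [e, map_mul, hz ⟨0, x.a⟩ rfl]
    simp
  refine ⟨AddMonoidHom.mk' (fun c => (α ⟨c, 0⟩).a) fun c d => ?_, ?_⟩
  · have := hs' (⟨c, 0⟩ * ⟨d, 0⟩)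
    rw [map_mul, mul_a, mul_a, h, h, mul_c] at this
    rw [this]
    ring
  · ext x
    · rw [cAut_c, h]
    · rw [cAut_a]
      simp [hs']

theorem card_autK : Nat.card (autK F) = 2 ^ (2 * m + 1) ^ 2 := by
  have e : Nat.card (autK F) = Nat.card (F →+ F) := by
    refine (Nat.card_eq_of_bijective (fun f => (⟨cAut f, cAut_c f⟩ : autK F)) ⟨?_, ?_⟩).symm
    · intro f g h
      ext c
      have := congrArg (fun α : autK F => (α.1 ⟨c, 0⟩).a) h
      simpa [cAut_a] using this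
    · rintro ⟨α, h⟩
      obtain ⟨f, rfl⟩ := exists_cAut h
      exact ⟨f, rfl⟩
  let _ := ZMod.algebra F 2
  have h1 : Module.finrank (ZMod 2) F = 2 * m + 1 := by
    have := Module.natCard_eq_pow_finrank (K := ZMod 2) (V := F)
    rw [card_F F, Nat.card_zmod] at this
    exact (Nat.pow_right_injective le_rfl this).symm
  rw [e, Nat.card_congr (AddMonoidHom.toZModLinearMapEquiv 2).toEquiv,
    Module.natCard_eq_pow_finrank (K := ZMod 2), Module.finrank_linearMap, h1, Nat.card_zmod, sq]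

theorem autK_comm {α β : MulAut (SH F)} (hα : α ∈ autK F) (hβ : β ∈ autK F) :
    α * β = β * α := by
  obtain ⟨f, rfl⟩ := exists_cAut hα
  obtain ⟨g, rfl⟩ := exists_cAut hβ
  ext x
  · simp only [MulAut.mul_apply, cAut_c]
  · simp only [MulAut.mul_apply, cAut_c, cAut_a]; ring

theorem autK_sq {α : MulAut (SH F)} (hα : α ∈ autK F) : α ^ 2 = 1 := by
  obtain ⟨f, rfl⟩ := exists_cAut hα
  ext x : 1
  exact (cAut f).left_inv x

theorem mem_autK_of_scalar {α : MulAut (SH F)} {t : Fˣ} (h : ∀ x, (α x).c = t * x.c) {k : ℕ}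
    (hk : α ^ 2 ^ k = 1) : t = 1 := by
  have pow_c : ∀ (k : ℕ) (x : SH F), ((α ^ k) x).c = (t : F) ^ k * x.c := fun k x => by
    induction k with
    | zero => simp
    | succ k ih => rw [pow_succ', MulAut.mul_apply, h, ih, pow_succ', mul_assoc]
  have e := pow_c (2 ^ k) ⟨1, 0⟩
  rw [hk, MulAut.one_apply, mul_one] at e
  have : ((t : F) - 1) ^ 2 ^ k = 0 := by rw [sub_pow_char_pow, ← e, one_pow, sub_self]
  exact Units.ext (sub_eq_zero.1 (pow_eq_zero_iff (by positivity) |>.1 this))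

theorem pCore_mulAut : pCore 2 (MulAut (SH F)) = autK F := by
  refine le_antisymm (fun α hα => ?_)
    (Grp.le_pCore inferInstance fun α => ⟨1, Subtype.ext (autK_sq α.2)⟩)
  obtain ⟨t, φ, h⟩ := exists_semilinear α
  have hp := Grp.pCore_isPGroup 2 (MulAut (SH F))
  have h1 : ∀ c, φ c = c := fun c => by
    rcases eq_or_ne c 0 with rfl | hc
    · exact map_zero φ
    let u := Units.mk0 c hc
    have hm : α * (tor u * α⁻¹ * (tor u)⁻¹) ∈ pCore 2 (MulAut (SH F)) :=
      mul_mem hα (Normal.conj_mem inferInstance _ (inv_mem hα) _)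
    obtain ⟨k, hk⟩ := hp ⟨_, hm⟩
    have := mem_autK_of_scalar (t := Units.map (φ : F →* F) u * u⁻¹) (k := k)
      (α := α * (tor u * α⁻¹ * (tor u)⁻¹)) (fun x => by
        have e := h (α⁻¹ ((tor u)⁻¹ x))
        rw [MulAut.apply_inv_self, tor_inv_c] at e
        simp only [MulAut.mul_apply, h, tor_c, map_mul, Units.val_mul, mul_assoc, e]
        simp; ring) (congrArg Subtype.val hk)
    exact congrArg Units.val (mul_inv_eq_one.1 this)
  simp only [h1] at h
  obtain ⟨k, hk⟩ := hp ⟨_, hα⟩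
  intro x
  rw [h, mem_autK_of_scalar h (congrArg Subtype.val hk), Units.val_one, one_mul]

theorem card_mulAut :
    Nat.card (MulAut (SH F)) = 2 ^ (2 * m + 1) ^ 2 * ((2 * m + 1) * (2 ^ (2 * m + 1) - 1)) := by
  rw [← (autK F).card_mul_index, card_autK, index_autK, Nat.card_units, card_F F,
    (Inv.UH.exists_frob (card_F F)).1, mul_comm (2 * m + 1)]

end SH

end Cfsg.Agent.TwoG
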